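import Mathlib
import Cfsg.Agent.Lib.StGen.Final

/-!
Squares and the derived subgroup of the subgroup `U` of a split `(B,N)`-pair: if `U` decomposes along the
root subgroups `X i` of the simple reflections and conjugates of `X i` under ascending elements of `N` lie
in `U`, then `U` is generated by these conjugates.  Hence if `x² ∈ X i'` for `x ∈ X i`, then `u² ∈ U'` for
all `u ∈ U`.
-/

set_option autoImplicit false
set_option linter.unusedSectionVars false

namespace Cfsg.Agent.Lib.SqChar2.Chain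

open Cfsg Cfsg.Agent.Lib.BNPair.Basic Cfsg.Agent.Lib.ChevOrder.BNCount Cfsg.Agent.Lib.StGen.Final
open scoped commutatorElement

section Squares

variable {G : Type*} [Group G]

/-- The set of elements of a subgroup with square in the derived subgroup generates a subgroup of such
elements. -/
theorem closure_sq (U : Subgroup G) :
    ∀ g ∈ Subgroup.closure {g | g ∈ U ∧ g ^ 2 ∈ ⁅U, U⁆}, g ∈ U ∧ g ^ 2 ∈ ⁅U, U⁆ := by
  intro g hg
  induction hg using Subgroup.closure_induction with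
  | mem x hx => exact hx
  | one => exact ⟨U.one_mem, by simp⟩
  | mul a b _ _ ha hb =>
    refine ⟨U.mul_mem ha.1 hb.1, ?_⟩
    have hc : ⁅a⁻¹, b⁆ ∈ ⁅U, U⁆ :=
      Subgroup.commutator_mem_commutator (U.inv_mem ha.1) hb.1
    have e : (a * b) ^ 2 = a ^ 2 * ⁅a⁻¹, b⁆ * b ^ 2 := by
      simp only [pow_two, commutatorElement_def]
      group
    rw [e]
    exact Subgroup.mul_mem _ (Subgroup.mul_mem _ ha.2 hc) hb.2
  | inv a _ ha =>
    refine ⟨U.inv_mem ha.1, ?_⟩
    have e : (a⁻¹) ^ 2 = (a ^ 2)⁻¹ := by simp [pow_two]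
    rw [e]
    exact Subgroup.inv_mem _ ha.2

/-- If a subgroup is contained in the closure of the elements with square in the derived subgroup, all
squares lie in the derived subgroup. -/
theorem sq_mem_of_le {U : Subgroup G} (h : U ≤ Subgroup.closure {g | g ∈ U ∧ g ^ 2 ∈ ⁅U, U⁆})
    {u : G} (hu : u ∈ U) : u ^ 2 ∈ ⁅U, U⁆ :=
  (closure_sq U u (h hu)).2

/-- Squares of conjugates. -/
theorem conj_sq_mem {U X : Subgroup G} {n x : G} (hX : ∀ y ∈ X, n⁻¹ * y * n ∈ U) (hx : x ∈ X)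
    (h : x ^ 2 ∈ ⁅X, X⁆) : (n⁻¹ * x * n) ^ 2 ∈ ⁅U, U⁆ := by
  have hle : X.map (MulAut.conj n⁻¹).toMonoidHom ≤ U := by
    rintro _ ⟨y, hy, rfl⟩
    have := hX y hy
    simpa [MulAut.conj_apply] using this
  have h1 : (MulAut.conj n⁻¹).toMonoidHom (x ^ 2) ∈ (⁅X, X⁆ : Subgroup G).map (MulAut.conj n⁻¹).toMonoidHom :=
    Subgroup.mem_map_of_mem _ h
  rw [Subgroup.map_commutator] at h1
  have h2 := Subgroup.commutator_mono hle hle h1
  have e : (n⁻¹ * x * n) ^ 2 = (MulAut.conj n⁻¹).toMonoidHom (x ^ 2) := by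
    simp [MulAut.conj_apply, pow_two]
    group
  rw [e]
  exact h2

end Squares

variable {G : Type*} [Group G] [Finite G] {P : Cfsg.BNPair G} {p : ℕ} [hp : Fact p.Prime]
  {U : Subgroup G} {ι : Type*} {e : ι → G}

/-- `U` lies in every subgroup containing the ascending conjugates of the root subgroups. -/
theorem le_of_chain (H : Hyp P p U e) (X : ι → Subgroup G)
    (hdec : ∀ i, ∀ u ∈ U, ∃ x ∈ X i, (e i)⁻¹ * (x⁻¹ * u) * e i ∈ U)
    (hasc : ∀ i, ∀ n ∈ P.N, len P n < len P (e i * n) → ∀ x ∈ X i, n⁻¹ * x * n ∈ U)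
    (K : Subgroup G)
    (hK : ∀ i, ∀ n ∈ P.N, len P n < len P (e i * n) → ∀ x ∈ X i, n⁻¹ * x * n ∈ K) : U ≤ K := by
  obtain ⟨M, hM⟩ : ∃ M, ∀ n : G, len P n ≤ M := by
    obtain ⟨M, hM⟩ := (Set.finite_range (len P)).bddAbove
    exact ⟨M, fun n => hM ⟨n, rfl⟩⟩
  have key : ∀ k : ℕ, ∀ n ∈ P.N, M - len P n = k → ∀ v ∈ U, n * v * n⁻¹ ∈ U → v ∈ K := by
    intro k
    induction k using Nat.strong_induction_on with
    | _ k ih =>
      intro n hn hk v hv hz
      by_cases hex : ∃ i, len P n < len P (e i * n)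
      · obtain ⟨i, hi⟩ := hex
        obtain ⟨x, hx, hx'⟩ := hdec i _ hz
        have hr := hasc i n hn hi x hx
        have hrK := hK i n hn hi x hx
        have hs : e i ∈ P.S := H.he i
        have hm : (e i)⁻¹ * n ∈ P.N := P.N.mul_mem (P.N.inv_mem (P.subset hs)) hn
        have hlen : len P ((e i)⁻¹ * n) = len P (e i * n) := len_inv_mul hs hn
        have h1 : (n⁻¹ * x * n)⁻¹ * v ∈ U := U.mul_mem (U.inv_mem hr) hv
        have h2 : ((e i)⁻¹ * n) * ((n⁻¹ * x * n)⁻¹ * v) * ((e i)⁻¹ * n)⁻¹ ∈ U := by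
          have e1 : ((e i)⁻¹ * n) * ((n⁻¹ * x * n)⁻¹ * v) * ((e i)⁻¹ * n)⁻¹ =
              (e i)⁻¹ * (x⁻¹ * (n * v * n⁻¹)) * e i := by group
          rw [e1]
          exact hx'
        have h3 : (n⁻¹ * x * n)⁻¹ * v ∈ K := by
          refine ih (M - len P ((e i)⁻¹ * n)) ?_ _ hm rfl _ h1 h2
          have := hM (e i * n)
          rw [hlen]
          omega
        have e2 : v = (n⁻¹ * x * n) * ((n⁻¹ * x * n)⁻¹ * v) := by group
        rw [e2]
        exact K.mul_mem hrK h3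
      · push Not at hex
        have hlt : ∀ i, len P (e i * n) < len P n := fun i =>
          lt_of_le_of_ne (hex i) (len_ne (H.he i) hn)
        have h1 : n * v * n⁻¹ ∈ P.B ⊓ P.N := by
          refine H.hT n hn hlt _ (H.U_le hz) ?_
          have e1 : n⁻¹ * (n * v * n⁻¹) * n = v := by group
          rw [e1]
          exact H.U_le hv
        have h2 := inf_eq_one H h1 hz
        have h3 : v = 1 := by
          have e1 : v = n⁻¹ * (n * v * n⁻¹) * n := by group
          rw [e1, h2]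
          group
        rw [h3]
        exact K.one_mem
  intro u hu
  exact key _ 1 P.N.one_mem rfl u hu (by simpa using hu)

/-- The conclusion on squares. -/
theorem sq_mem_of_chain (H : Hyp P p U e) (X : ι → Subgroup G)
    (hdec : ∀ i, ∀ u ∈ U, ∃ x ∈ X i, (e i)⁻¹ * (x⁻¹ * u) * e i ∈ U)
    (hasc : ∀ i, ∀ n ∈ P.N, len P n < len P (e i * n) → ∀ x ∈ X i, n⁻¹ * x * n ∈ U)
    (hsq : ∀ i, ∀ x ∈ X i, x ^ 2 ∈ ⁅X i, X i⁆) {u : G} (hu : u ∈ U) : u ^ 2 ∈ ⁅U, U⁆ := by
  refine sq_mem_of_le (le_of_chain H X hdec hasc _ ?_) hu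
  intro i n hn hlen x hx
  refine Subgroup.subset_closure ⟨hasc i n hn hlen x hx, ?_⟩
  exact conj_sq_mem (hasc i n hn hlen) hx (hsq i x hx)

/-- `U` is a Sylow subgroup. -/
theorem exists_sylow (H : Hyp P p U e) : ∃ Q : Sylow p G, (Q : Subgroup G) = U :=
  ⟨H.hU.toSylow (not_dvd_index H), rfl⟩

end Cfsg.Agent.Lib.SqChar2.Chain
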