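import Mathlib
import Cfsg.Agent.Lib.SqChar2.Chain
import Cfsg.Agent.Lib.ChevBN.Core
import Cfsg.Agent.Lib.SLSyl.Core

/-!
The chain lemma for root data `RootCore`, and the transfer of the property to quotients and isomorphic groups.
-/

set_option autoImplicit false
set_option linter.unusedSectionVars false

namespace Cfsg.Agent.Lib.SqChar2.Root

open Cfsg Cfsg.Agent.Lib.BNPair.Basic Cfsg.Agent.Lib.ChevOrder.BNCount Cfsg.Agent.Lib.StGen.Final
open Cfsg.Agent.Lib.ChevBN.Core Cfsg.Agent.Lib.SqChar2.Chain Cfsg.Agent.Lib.SLSyl.Core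
open scoped commutatorElement

variable {G : Type*} [Group G] [Finite G] {P : Cfsg.BNPair G} {p : ℕ} [hp : Fact p.Prime]
  {ι : Type*} {e : ι → G}

/-- The conclusion of the chain lemma for root data. -/
theorem sq_of_core (R : RootCore G) (hB : P.B = R.U ⊔ R.H) (hN : P.N = R.N) (hS : P.S = R.S)
    (H : Hyp P p R.U e) (hsq : ∀ s ∈ R.S, ∀ x ∈ R.X s, x ^ 2 ∈ ⁅R.X s, R.X s⁆) {u : G}
    (hu : u ∈ R.U) : u ^ 2 ∈ ⁅R.U, R.U⁆ := by
  have hSe : ∀ i, e i ∈ R.S := fun i => hS ▸ H.he i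
  refine sq_mem_of_chain H (fun i => R.X (e i)) ?_ ?_ (fun i => hsq _ (hSe i)) hu
  · intro i u hu
    obtain ⟨a, ha, x, hx, e1⟩ := R.decomp _ (hSe i) u⁻¹ (R.U.inv_mem hu)
    refine ⟨x⁻¹, Subgroup.inv_mem _ hx, ?_⟩
    have e2 : x⁻¹⁻¹ * u = a⁻¹ := by
      have : u = (a * x)⁻¹ := by rw [← e1, inv_inv]
      rw [this]
      group
    rw [e2]
    have h1 : e i * a⁻¹ * (e i)⁻¹ ∈ R.U :=
      R.Y_le _ (hSe i) (R.Y_norm _ (hSe i) _ (Subgroup.inv_mem _ ha))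
    have h2 := R.H_norm_U _ (R.H.inv_mem (R.S_sq _ (hSe i))) _ h1
    have e3 : (e i * e i)⁻¹ * (e i * a⁻¹ * (e i)⁻¹) * (e i * e i)⁻¹⁻¹ = (e i)⁻¹ * a⁻¹ * e i := by group
    rwa [e3] at h2
  · intro i n hn hlen x hx
    rcases R.dichotomy _ (hSe i) n (hN ▸ hn) with h | h
    · exact h x hx
    · exfalso
      obtain ⟨x₀, hx₀, hne⟩ := R.conj_ne _ (hSe i)
      have hs := H.he i
      have hm : (e i)⁻¹ * n ∈ P.N := P.N.mul_mem (P.N.inv_mem (P.subset hs)) hn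
      have h1 := h x₀ hx₀
      have h2 : len P ((e i)⁻¹ * n) < len P (e i * ((e i)⁻¹ * n)) := by
        refine len_lt_of_conj (x := x₀) hs hm ?_ ?_ ?_
        · rw [hB]
          exact Subgroup.mem_sup_left (R.X_le _ (hSe i) hx₀)
        · rw [hB]
          exact hne
        · rw [hB]
          refine Subgroup.mem_sup_left ?_
          have e3 : ((e i)⁻¹ * n)⁻¹ * x₀ * ((e i)⁻¹ * n) = n⁻¹ * (e i * x₀ * (e i)⁻¹) * n := by group
          rw [e3]
          exact h1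
      rw [len_inv_mul hs hn, mul_inv_cancel_left] at h2
      omega

/-- A Sylow subgroup with squares in the derived subgroup. -/
def GoodSyl (G : Type*) [Group G] (p : ℕ) : Prop :=
  ∃ Q : Sylow p G, ∀ u ∈ (Q : Subgroup G), u ^ 2 ∈ ⁅(Q : Subgroup G), (Q : Subgroup G)⁆

theorem goodSyl_of_core (R : RootCore G) (hB : P.B = R.U ⊔ R.H) (hN : P.N = R.N) (hS : P.S = R.S)
    (H : Hyp P p R.U e) (hsq : ∀ s ∈ R.S, ∀ x ∈ R.X s, x ^ 2 ∈ ⁅R.X s, R.X s⁆) : GoodSyl G p := by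
  obtain ⟨Q, hQ⟩ := exists_sylow H
  refine ⟨Q, fun u hu => ?_⟩
  rw [hQ] at hu ⊢
  exact sq_of_core R hB hN hS H hsq hu

end Cfsg.Agent.Lib.SqChar2.Root

namespace Cfsg.Agent.Lib.SqChar2.Root

open Cfsg.Agent.Lib.SqChar2.Chain Cfsg.Agent.Lib.SLSyl.Core
open scoped commutatorElement

variable {G H : Type*} [Group G] [Group H]

/-- From one Sylow `2`-subgroup to all of them. -/
theorem sqSyl_of_good [Finite G] (h : GoodSyl G 2) : SqSyl G := by
  haveI : Fact (Nat.Prime 2) := ⟨Nat.prime_two⟩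
  obtain ⟨Q, hQ⟩ := h
  intro P x
  obtain ⟨g, hg⟩ := MulAction.exists_smul_eq G Q P
  have hPQ : (P : Subgroup G) = (Q : Subgroup G).map (MulAut.conj g).toMonoidHom := by
    rw [← hg]
    rfl
  have hx : x.1 ∈ (Q : Subgroup G).map (MulAut.conj g).toMonoidHom := by
    rw [← hPQ]
    exact x.2
  obtain ⟨y, hy, hyx⟩ := hx
  have hconj : ∀ z ∈ (Q : Subgroup G), (g⁻¹)⁻¹ * z * g⁻¹ ∈ (P : Subgroup G) := by
    intro z hz
    rw [hPQ]
    exact ⟨z, hz, by simp [MulAut.conj_apply]⟩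
  have h1 := conj_sq_mem hconj hy (hQ y hy)
  have e1 : (g⁻¹)⁻¹ * y * g⁻¹ = x.1 := by
    rw [← hyx]
    simp [MulAut.conj_apply]
  rw [e1] at h1
  rw [← Subgroup.map_subtype_commutator] at h1
  obtain ⟨z, hz, hz2⟩ := h1
  have hz3 : z = x ^ 2 := by
    apply Subtype.ext
    change (P : Subgroup G).subtype z = x.1 ^ 2
    rw [hz2]
  rwa [hz3] at hz

/-- Quotients. -/
theorem good_of_surj [Finite G] [Finite H] {p : ℕ} [Fact p.Prime] (f : G →* H)
    (hf : Function.Surjective f) (h : GoodSyl G p) : GoodSyl H p := by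
  obtain ⟨Q, hQ⟩ := h
  refine ⟨Q.mapSurjective hf, fun u hu => ?_⟩
  rw [Sylow.coe_mapSurjective] at hu ⊢
  obtain ⟨v, hv, rfl⟩ := hu
  rw [← Subgroup.map_commutator, ← map_pow]
  exact Subgroup.mem_map_of_mem _ (hQ v hv)

/-- The statement for the central quotient. -/
theorem sqSyl_quot [Finite G] (N : Subgroup G) [N.Normal] (h : GoodSyl G 2) : SqSyl (G ⧸ N) := by
  haveI : Fact (Nat.Prime 2) := ⟨Nat.prime_two⟩
  exact sqSyl_of_good (good_of_surj (QuotientGroup.mk' N) (QuotientGroup.mk'_surjective N) h)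

end Cfsg.Agent.Lib.SqChar2.Root
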