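import Mathlib
import Cfsg.Agent.Lib.SqChar2.Root
import Cfsg.Agent.Lib.StGen.Chain

/-!
Squares in the Sylow `2`-subgroups of a group with root data from `SL₂`'s, in characteristic `2`.
-/

set_option autoImplicit false
set_option linter.unusedSectionVars false
set_option linter.unusedSimpArgs false

namespace Cfsg.Agent.Lib.SqChar2.Bld

open Matrix Cfsg Cfsg.Agent.Lib.PSL2.Basic Cfsg.Agent.Lib.ChevBN.Core Cfsg.Agent.Lib.BNPair.Basic
open Cfsg.Agent.Lib.ChevOrder.BNCount Cfsg.Agent.Lib.StGen.Mono Cfsg.Agent.Lib.StGen.Builder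
open Cfsg.Agent.Lib.SqChar2.Root Cfsg.Agent.Lib.StGen.Chain
open scoped MatrixGroups commutatorElement

variable {G : Type*} [Group G] [Finite G] {ι : Type*} [Fintype ι] [DecidableEq ι] [Nonempty ι]
  {F : Type*} [Field F] [CharP F 2]
  {ρ : G →* Matrix ι ι F} {ord : ι → ℕ} {hord : Function.Injective ord}
  {J : Type*} (D : J → RootData ρ (ord := ord))
  (hinj : Function.Injective fun j => (D j).π)
  (hword : ∀ π, (∃ n, IsMon ρ n π) → ∃ g ∈ Subgroup.closure (Set.range fun j => (D j).φ w), IsMon ρ g π)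
  (hρ : Function.Injective ρ)
  (hG : (USub ρ hord ⊔ HSub ρ) ⊔ NSub ρ = ⊤)
  (hanti : ∀ n π, IsMon ρ n π → (∀ j r c, (D j).Sx r c → ord (π⁻¹ c) < ord (π⁻¹ r)) →
    ∀ x ∈ USub ρ hord ⊔ HSub ρ, n⁻¹ * x * n ∈ USub ρ hord ⊔ HSub ρ → x ∈ HSub ρ)

include hinj hword hG hρ hanti in
theorem good_of_builder : GoodSyl G 2 := by
  haveI : Fact (Nat.Prime 2) := ⟨Nat.prime_two⟩
  have H := hyp (p := 2) D hinj hword hρ hG hanti
  refine goodSyl_of_core (P := pair D hinj hword hG) (rootCore D hinj hword hord) rfl rfl rfl H ?_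
  rintro _ ⟨j, rfl⟩ y hy
  have hinj' : Function.Injective fun j => ((fun j => (D j).node (hord := hord)) j).e :=
    e_injective hord (node := fun j => (D j).node (hord := hord)) hinj
  have hX : (rootCore D hinj hword hord).X ((D j).node (hord := hord)).e = ((D j).node (hord := hord)).X := by
    exact hinj'.extend_apply (fun j => ((D j).node (hord := hord)).X) (fun _ => ⊥) j
  change y ∈ (rootCore D hinj hword hord).X ((D j).node (hord := hord)).e at hy
  change y ^ 2 ∈ ⁅(rootCore D hinj hword hord).X ((D j).node (hord := hord)).e,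
    (rootCore D hinj hword hord).X ((D j).node (hord := hord)).e⁆
  rw [hX] at hy ⊢
  obtain ⟨t, rfl⟩ := hy
  have h1 : (((D j).node (hord := hord)).φ (x t)) ^ 2 = 1 := by
    rw [pow_two, ← map_mul, ← x_add, CharTwo.add_self_eq_zero]
    have h2 : (x (0 : F) : SL(2, F)) = 1 := by
      have h3 := x_add (0 : F) 0
      rw [add_zero] at h3
      exact left_eq_mul.1 h3
    rw [h2, map_one]
  rw [h1]
  exact Subgroup.one_mem _

end Cfsg.Agent.Lib.SqChar2.Bld

namespace Cfsg.Agent.Lib.SqChar2.Bld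

open Matrix Cfsg Cfsg.Agent.Lib.PSL2.Basic Cfsg.Agent.Lib.ChevBN.Core Cfsg.Agent.Lib.BNPair.Basic
open Cfsg.Agent.Lib.ChevOrder.BNCount Cfsg.Agent.Lib.StGen.Mono Cfsg.Agent.Lib.StGen.Builder
open Cfsg.Agent.Lib.SqChar2.Root Cfsg.Agent.Lib.StGen.Chain
open scoped MatrixGroups commutatorElement

variable {G : Type*} [Group G] [Finite G] {ι : Type*} [Fintype ι] [DecidableEq ι] [Nonempty ι]
  {F : Type*} [Field F] [CharP F 2]
  {ρ : G →* Matrix ι ι F} {ord : ι → ℕ} {hord : Function.Injective ord}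
  {J : Type*} (D : J → RootData ρ (ord := ord))
  (hinj : Function.Injective fun j => (D j).π)
  (hτ : ∀ j c r, ord c < ord r → ord ((D j).π r) < ord ((D j).π c) →
    (D j).Sx ((D j).π r) ((D j).π c))
  (hsurj : ∀ i k, k < ord i → ∃ j, ord j = k)
  (hcov : ∀ r c, ord c = ord r + 1 → ∃ j, (D j).Sx r c)
  (hρ : Function.Injective ρ)
  (hG : (USub ρ hord ⊔ HSub ρ) ⊔ NSub ρ = ⊤)

include hinj hτ hsurj hcov hρ hG in
/-- The version of `StGen.Chain.main`. -/
theorem good_of_chain : GoodSyl G 2 := by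
  refine good_of_builder D hinj (fun π hn => Cfsg.Agent.Lib.StGen.Builder.exists_word (hord := hord) D (Rel := fun _ _ => True)
    (fun _ _ _ _ => trivial) (fun _ => trivial) (fun j c r _ => hτ j c r) (flip_of_cov (hord := hord) D hsurj hcov) _ π rfl hn)
    hρ hG ?_
  intro n π hπ hj x' hx hy
  refine anti_conj hπ hx hy fun r c hrc _ => ?_
  refine chain_of_consec (R := fun r c => ord (π⁻¹ c) < ord (π⁻¹ r)) (fun a b c h1 h2 => lt_trans h2 h1) hsurj ?_ r c hrc
  intro r c hc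
  obtain ⟨j, hj'⟩ := hcov r c hc
  exact hj j r c hj'

end Cfsg.Agent.Lib.SqChar2.Bld
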