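import Mathlib
import Cfsg.Agent.Lib.SqChar2.Root
import Cfsg.Agent.Lib.ChevOrder.SylowU

/-!
Squares in the Sylow `2`-subgroups of Chevalley groups, in characteristic `2`; tools for subgroups.
-/

set_option autoImplicit false
set_option linter.unusedSectionVars false

namespace Cfsg.Agent.Lib.SqChar2.Chev

open Cfsg.Lie Cfsg.Agent.Lib.ChevBN.Elem Cfsg.Agent.Lib.ChevBN.Rel Cfsg.Agent.Lib.ChevBN.Table
open Cfsg.Agent.Lib.SqChar2.Root Cfsg.Agent.Lib.SqChar2.Chain Cfsg.Agent.Lib.SLSyl.Core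
open scoped commutatorElement

section Tools

variable {Γ : Type*} [Group Γ]

/-- From a subgroup of the ambient group to the subgroup of a group containing it. -/
theorem sq_subgroupOf {A G₁ : Subgroup Γ} (hle : A ≤ G₁) (h : ∀ u ∈ A, u ^ 2 ∈ ⁅A, A⁆) :
    ∀ u ∈ A.subgroupOf G₁, u ^ 2 ∈ ⁅A.subgroupOf G₁, A.subgroupOf G₁⁆ := by
  intro u hu
  have h1 : (u : Γ) ^ 2 ∈ ⁅A, A⁆ := h _ hu
  have hm : (A.subgroupOf G₁).map G₁.subtype = A := Subgroup.map_subgroupOf_eq_of_le hle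
  rw [← hm, ← Subgroup.map_commutator] at h1
  obtain ⟨w, hw, hw2⟩ := h1
  have e : w = u ^ 2 := Subtype.ext (by rw [← Subgroup.coe_subtype, hw2]; simp)
  rwa [e] at hw

/-- The criterion for a Sylow subgroup in a subgroup. -/
theorem good_of_card {A G₁ : Subgroup Γ} [Finite G₁] (hle : A ≤ G₁) {k c d : ℕ}
    (hA : Nat.card A = 2 ^ k) (hc : c * Nat.card G₁ = 2 ^ k * d) (hd : Odd d)
    (h : ∀ u ∈ A, u ^ 2 ∈ ⁅A, A⁆) : GoodSyl G₁ 2 := by
  haveI : Fact (Nat.Prime 2) := ⟨Nat.prime_two⟩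
  have hcard : Nat.card (A.subgroupOf G₁) = 2 ^ k := by
    rw [← hA]
    exact Nat.card_congr (Subgroup.subgroupOfEquivOfLe hle).toEquiv
  have hpg : IsPGroup 2 (A.subgroupOf G₁) := IsPGroup.of_card hcard
  have hidx : ¬ 2 ∣ (A.subgroupOf G₁).index := by
    intro hdiv
    have h1 := Subgroup.card_mul_index (A.subgroupOf G₁)
    rw [hcard] at h1
    rw [← h1] at hc
    have h2 : 2 ^ k * (c * (A.subgroupOf G₁).index) = 2 ^ k * d := by
      rw [← hc]
      ring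
    have h3 : c * (A.subgroupOf G₁).index = d := Nat.eq_of_mul_eq_mul_left (by positivity) h2
    rw [← h3] at hd
    exact (Nat.odd_mul.1 hd).2.not_two_dvd_nat hdiv
  refine ⟨hpg.toSylow hidx, fun u hu => ?_⟩
  exact sq_subgroupOf hle h u hu

end Tools

variable {D : ChevalleyDatum} {F : Type*} [Field F] [CharP F 2] {η : ℕ → ℕ → ℤ}

/-- The elements of `U`. -/
theorem sq_posUnipotent (hA : AddRel D F) {u : GL D.Idx F} (hu : u ∈ D.posUnipotent F) :
    u ^ 2 ∈ ⁅D.posUnipotent F, D.posUnipotent F⁆ := by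
  refine sq_mem_of_le ?_ hu
  rw [ChevalleyDatum.posUnipotent, Subgroup.closure_le]
  rintro g ⟨r, t, hr, hg⟩
  apply Subgroup.subset_closure
  refine ⟨Subgroup.subset_closure ⟨r, t, hr, hg⟩, ?_⟩
  have h1 : g ^ 2 = 1 := by
    apply Units.ext
    rw [pow_two, Units.val_mul, hg, x_add hA, CharTwo.add_self_eq_zero, x_zero hA, Units.val_one]
  rw [h1]
  exact Subgroup.one_mem _

/-- The Chevalley groups. -/
theorem good_chev [Fintype F] (hR : Sys D F η) (hT : Tbl D) : GoodSyl ↥(D.group F) 2 := by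
  haveI : Fact (Nat.Prime 2) := ⟨Nat.prime_two⟩
  obtain ⟨Q, hQ⟩ := Cfsg.Agent.Lib.ChevOrder.SylowU.exists_sylow hR hT 2
  refine ⟨Q, fun u hu => ?_⟩
  rw [hQ] at hu ⊢
  exact sq_subgroupOf (Cfsg.Agent.Lib.ChevBN.Pair.U_le_G hR hT) (fun u hu => sq_posUnipotent hR.toAddRel hu) u hu

end Cfsg.Agent.Lib.SqChar2.Chev
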