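import Mathlib

/-!
The values `σ a * b + σ b * a` additively span a finite field `K` of characteristic `2` of order `2^(2m+1)`,
`m ≥ 1`, when `σ` is a field automorphism whose square is the inverse of the squaring map.
-/

set_option autoImplicit false

namespace Cfsg.Agent.Lib.SqChar2.Field

variable {K : Type*} [Field K] [Fintype K] [CharP K 2]

/-- The additive span. -/
def Nf (σ : K →+* K) : AddSubgroup K := AddSubgroup.closure {v | ∃ a b, v = σ a * b + σ b * a}

theorem two_eq' (a : K) : a + a = 0 := CharTwo.add_self_eq_zero a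

theorem neg_eq' (a : K) : -a = a := CharTwo.neg_eq a

/-- The product trick. -/
theorem pow_card_eq_one (H : AddSubgroup K) {e : K} (he : e ≠ 0) (hs : ∀ v ∈ H, e * v ∈ H) :
    e ^ (Nat.card H - 1) = 1 := by
  classical
  let S : Finset K := Finset.univ.filter fun v => v ∈ H ∧ v ≠ 0
  have hS : ∀ v, v ∈ S ↔ v ∈ H ∧ v ≠ 0 := by
    intro v
    simp [S]
  have hcard : S.card = Nat.card H - 1 := by
    have h1 : Nat.card H = (Finset.univ.filter fun v => v ∈ H).card := by
      rw [Nat.card_eq_fintype_card, Fintype.card_subtype]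
    have h2 : S = (Finset.univ.filter fun v => v ∈ H).erase 0 := by
      ext v
      simp [S, and_comm]
    rw [h1, h2, Finset.card_erase_of_mem]
    simp [H.zero_mem]
  have himg : S.image (fun v => e * v) = S := by
    apply Finset.eq_of_subset_of_card_le
    · intro w hw
      obtain ⟨v, hv, rfl⟩ := Finset.mem_image.1 hw
      rw [hS] at hv ⊢
      exact ⟨hs v hv.1, mul_ne_zero he hv.2⟩
    · rw [Finset.card_image_of_injective _ (mul_right_injective₀ he)]
  have hP : (∏ v ∈ S, v) ≠ 0 := by
    rw [Finset.prod_ne_zero_iff]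
    intro v hv
    exact ((hS v).1 hv).2
  have h1 : ∏ v ∈ S, (e * v) = ∏ v ∈ S, v := by
    conv_rhs => rw [← himg]
    rw [Finset.prod_image]
    intro a _ b _ hab
    exact mul_right_injective₀ he hab
  rw [Finset.prod_mul_distrib, Finset.prod_const] at h1
  rw [← hcard]
  exact mul_right_cancel₀ hP (by rw [h1, one_mul])

theorem Nf_top (σ : K →+* K) (hσ : ∀ t, σ t = t → t = 0 ∨ t = 1) {m : ℕ} (hm : 1 ≤ m)
    (hK : Fintype.card K = 2 ^ (2 * m + 1)) : Nf σ = ⊤ := by
  classical
  by_contra hne
  -- the additive map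
  let L : K →+ K :=
    { toFun := fun t => σ t + t
      map_zero' := by simp
      map_add' := fun a b => by rw [map_add]; ring }
  have hL : ∀ t, L t = σ t + t := fun _ => rfl
  have hLe : ∀ t, t ∈ L.ker ↔ t = 0 ∨ t = 1 := by
    intro t
    rw [AddMonoidHom.mem_ker, hL]
    constructor
    · intro h
      have h1 : σ t = t := by
        have := two_eq' t
        exact add_right_cancel (h.trans this.symm)
      exact hσ t h1
    · rintro (rfl | rfl)
      · simp
      · rw [map_one]
        exact two_eq' 1
  have hker : Nat.card L.ker = 2 := by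
    have : Nat.card L.ker = Fintype.card {t // t = (0 : K) ∨ t = 1} := by
      rw [Nat.card_eq_fintype_card]
      exact Fintype.card_congr (Equiv.subtypeEquivRight hLe)
    rw [this, Fintype.card_subtype]
    have : (Finset.univ.filter fun t : K => t = 0 ∨ t = 1) = {0, 1} := by
      ext t
      simp
    rw [this, Finset.card_pair zero_ne_one]
  have hq : Nat.card K = 2 ^ (2 * m + 1) := by rw [Nat.card_eq_fintype_card, hK]
  have hLidx : L.range.index = 2 := by
    have h1 := AddSubgroup.card_mul_index L.ker
    have h2 : Nat.card L.range = L.ker.index := by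
      rw [AddSubgroup.index_ker]
    have h3 := AddSubgroup.card_mul_index L.range
    rw [h2] at h3
    rw [hker] at h1
    rw [hq] at h1 h3
    have h4 : L.ker.index ≠ 0 := by
      intro h0
      rw [h0, mul_zero] at h1
      exact (by positivity : (0 : ℕ) < 2 ^ (2 * m + 1)).ne h1
    have : L.ker.index * L.range.index = L.ker.index * 2 := by rw [h3, ← h1]; ring
    exact Nat.eq_of_mul_eq_mul_left (Nat.pos_of_ne_zero h4) this
  have hLle : L.range ≤ Nf σ := by
    rintro _ ⟨t, rfl⟩
    apply AddSubgroup.subset_closure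
    exact ⟨t, 1, by rw [hL, map_one, mul_one, one_mul]⟩
  -- the index of `Nf σ`
  have hidx : (Nf σ).index = 2 := by
    have h1 : (Nf σ).index ∣ L.range.index := AddSubgroup.index_dvd_of_le hLle
    rw [hLidx] at h1
    rcases (Nat.dvd_prime Nat.prime_two).1 h1 with h2 | h2
    · exact absurd (AddSubgroup.index_eq_one.1 h2) hne
    · exact h2
  have hcardN : Nat.card (Nf σ) = 2 ^ (2 * m) := by
    have h1 := AddSubgroup.card_mul_index (Nf σ)
    rw [hidx, hq] at h1
    have : 2 ^ (2 * m + 1) = 2 ^ (2 * m) * 2 := by ring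
    rw [this] at h1
    exact Nat.eq_of_mul_eq_mul_right (by norm_num) h1
  -- multiplication by the norm values
  have hone : ∀ α : K, α ≠ 0 → α * σ α = 1 := by
    intro α hα
    set e := α * σ α with he
    have he0 : e ≠ 0 := mul_ne_zero hα ((map_ne_zero σ).2 hα)
    have hs : ∀ v ∈ Nf σ, e * v ∈ Nf σ := by
      intro v hv
      induction hv using AddSubgroup.closure_induction with
      | mem x hx =>
        obtain ⟨a, b, rfl⟩ := hx
        apply AddSubgroup.subset_closure
        refine ⟨α * a, α * b, ?_⟩
        rw [map_mul, map_mul, he]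
        ring
      | zero => simp
      | add x y _ _ hx hy =>
        rw [mul_add]
        exact AddSubgroup.add_mem _ hx hy
      | neg x _ hx =>
        rw [mul_neg]
        exact AddSubgroup.neg_mem _ hx
    have h1 := pow_card_eq_one (Nf σ) he0 hs
    rw [hcardN] at h1
    have h2 : e ^ (Fintype.card K - 1) = 1 := FiniteField.pow_card_sub_one_eq_one e he0
    rw [hK] at h2
    have h3 : 2 ^ (2 * m + 1) - 1 = (2 ^ (2 * m) - 1) * 2 + 1 := by
      have : 1 ≤ 2 ^ (2 * m) := Nat.one_le_two_pow
      have e1 : 2 ^ (2 * m + 1) = 2 ^ (2 * m) * 2 := by ring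
      omega
    rw [h3, pow_succ, pow_mul, h1, one_pow, one_mul] at h2
    exact h2
  -- an element outside the prime field
  have hq8 : 2 < Fintype.card K := by
    rw [hK]
    calc 2 = 2 ^ 1 := by norm_num
      _ < 2 ^ (2 * m + 1) := Nat.pow_lt_pow_right (by norm_num) (by omega)
  obtain ⟨α, h0, h1⟩ : ∃ α : K, α ≠ 0 ∧ α ≠ 1 := by
    by_contra hcon
    push Not at hcon
    have : (Finset.univ : Finset K) ⊆ {0, 1} := by
      intro t _
      by_cases h : t = 0
      · simp [h]
      · simp [hcon t h]
    have h2 := Finset.card_le_card this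
    rw [Finset.card_pair zero_ne_one] at h2
    have h3 : (Finset.univ : Finset K).card = Fintype.card K := rfl
    omega
  have h1' : α + 1 ≠ 0 := by
    intro h
    apply h1
    have := two_eq' (1 : K)
    exact add_right_cancel (h.trans this.symm)
  have e1 := hone α h0
  have e2 := hone (α + 1) h1'
  rw [map_add, map_one] at e2
  have e3 : σ α = α + 1 := by
    have h2 := two_eq' (α + σ α)
    have h3 := two_eq' (1 : K)
    have e4 : α + σ α = 1 := by
      linear_combination e2 - e1 - h3
    linear_combination e4 - two_eq' α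
  rw [e3] at e1
  have e5 : α ^ 3 = 1 := by
    have h3 := two_eq' (1 : K)
    linear_combination (α - 1) * e1 + (α - 1) * h3
  have h6 : α ^ (Fintype.card K - 1) = 1 := FiniteField.pow_card_sub_one_eq_one α h0
  rw [hK] at h6
  have h7 : ∃ k, 2 ^ (2 * m + 1) - 1 = 3 * k + 1 := by
    have h8 : 2 ^ (2 * m + 1) % 3 = 2 := by
      rw [pow_succ, pow_mul]
      norm_num [Nat.mul_mod, Nat.pow_mod]
    have h9 : 1 ≤ 2 ^ (2 * m + 1) := Nat.one_le_two_pow
    exact ⟨(2 ^ (2 * m + 1) - 2) / 3, by omega⟩
  obtain ⟨k, hk⟩ := h7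
  rw [hk, pow_succ, pow_mul, e5, one_pow, one_mul] at h6
  exact h1 h6

end Cfsg.Agent.Lib.SqChar2.Field
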