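import Mathlib
import Cfsg.Agent.Lib.SqChar2.Chev
import Cfsg.Agent.Lib.SqChar2.Field
import Cfsg.Agent.Lib.TF4.Order
import Cfsg.Agent.Lib.TF4.Perf

/-!
Squares in the Sylow `2`-subgroups of the large Ree groups `²F₄(q)`, `q ≥ 8`.
-/

set_option autoImplicit false
set_option linter.unusedSectionVars false
set_option maxRecDepth 100000

namespace Cfsg.Agent.Lib.SqChar2.F4

open Cfsg.Lie Cfsg.Agent.Lib.Twisted Cfsg.Agent.Lib.TF4
open Cfsg.Agent.Lib.Chevalley.Tbl.F4 (sys comm)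
open Cfsg.Agent.Lib.ChevBN.Elem Cfsg.Agent.Lib.ChevBN.Table Cfsg.Agent.Lib.ChevBN.Rel
open Cfsg.Agent.Lib.ChevBN.Opp Cfsg.Agent.Lib.ChevBN.Torus Cfsg.Agent.Lib.ChevBN.Monomial
open Cfsg.Agent.Lib.ChevBN.Stmts Cfsg.Agent.Lib.ChevBN.Pair Cfsg.Agent.Lib.ChevBN.Perfect
open Cfsg.Agent.Lib.ChevOrder.Chev
open Cfsg.Agent.Lib.ChevBN.FastData (tbl_chevF4)
open Cfsg.Agent.Lib.SqChar2.Root Cfsg.Agent.Lib.SqChar2.Chain Cfsg.Agent.Lib.SqChar2.Chev
open Cfsg.Agent.Lib.SqChar2.Field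
open scoped commutatorElement

variable {K : Type*} [Field K] [Fintype K] [CharP K 2] {φ : K →+* K} (hφ2 : ∀ t, (φ (φ t)) ^ 2 = t)
  {T : Tw (sys (F := K)).toAddRel} (hρ : T.ρ = ρ0) (hτ : ∀ r t, T.τ r t = lam r (φ t)) {e : ℕ}
  (hφ : ∀ t, φ t = t ^ e)

include hφ2 hρ hτ

/-- The centre of the fundamental class of type `B₂` lies in its derived subgroup. -/
theorem Ew_center_mem {m : ℕ} (hm : 1 ≤ m) (hK : Fintype.card K = 2 ^ (2 * m + 1)) (v : K) :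
    Ew φ 0 v ∈ ⁅YY T 1, YY T 1⁆ := by
  have hfix : ∀ t : K, φ t = t → t = 0 ∨ t = 1 := by
    intro t ht
    have h1 := hφ2 t
    rw [ht, ht] at h1
    have h3 : t * (t - 1) = 0 := by
      linear_combination h1
    rcases mul_eq_zero.1 h3 with h4 | h4
    · exact Or.inl h4
    · exact Or.inr (sub_eq_zero.1 h4)
  have hmem : ∀ t u : K, Ew φ t u ∈ YY T 1 := fun t u => ⟨Ec_mem _ _ _ _, Ew_fix hφ2 hρ hτ t u⟩
  have hv : v ∈ Nf φ := by
    rw [Nf_top φ hfix hm hK]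
    trivial
  induction hv using AddSubgroup.closure_induction with
  | mem x hx =>
    obtain ⟨a, b, rfl⟩ := hx
    have h1 := Subgroup.commutator_mem_commutator (hmem a 0) (hmem b 0)
    have e1 : ⁅Ew φ a 0, Ew φ b 0⁆ = Ew φ 0 (φ a * b + φ b * a) := by
      rw [commutatorElement_def, Ew_inv hφ2, Ew_inv hφ2, Ew_mul hφ2, Ew_mul hφ2, Ew_mul hφ2]
      have hab : a + b + a = b := by linear_combination two_eq' a
      rw [hab, map_add]
      congr 1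
      · linear_combination two_eq' b
      · have h2 := two_eq' (φ a * a)
        have h3 := two_eq' (φ b * b)
        linear_combination h2 + h3
    rwa [e1] at h1
  | zero =>
    rw [Ew_zero]
    exact Subgroup.one_mem _
  | add x y _ _ hx hy =>
    have e1 : Ew φ 0 (x + y) = Ew φ 0 x * Ew φ 0 y := by
      rw [Ew_mul hφ2]
      simp
    rw [e1]
    exact Subgroup.mul_mem _ hx hy
  | neg x _ hx =>
    rw [neg_eq']
    exact hx

/-- The squares in the fundamental classes. -/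
theorem sq_YY {m : ℕ} (hm : 1 ≤ m) (hK : Fintype.card K = 2 ^ (2 * m + 1)) (j : Fin 2) {x : GL chevF4.Idx K}
    (hx : x ∈ YY T j) : x ^ 2 ∈ ⁅YY T j, YY T j⁆ := by
  match j with
  | 0 =>
    obtain ⟨t, rfl⟩ := Pw_of_fix hφ2 hρ hτ hx
    have h1 : (Pw φ t) ^ 2 = 1 := by
      rw [pow_two]
      nth_rw 1 [← Pw_inv t]
      exact inv_mul_cancel _
    rw [h1]
    exact Subgroup.one_mem _
  | 1 =>
    obtain ⟨t, u, rfl⟩ := Ew_of_fix hφ2 hρ hτ hx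
    have h1 : (Ew φ t u) ^ 2 = Ew φ 0 (φ t * t) := by
      rw [pow_two, Ew_mul hφ2, two_eq', two_eq', zero_add]
    rw [h1]
    exact Ew_center_mem hφ2 hρ hτ hm hK _

include hφ in
/-- The squares in `U¹`. -/
theorem sq_U {m : ℕ} (hm : 1 ≤ m) (hK : Fintype.card K = 2 ^ (2 * m + 1)) {u : GL chevF4.Idx K}
    (hu : u ∈ chevF4.posUnipotent K ⊓ twistedF4 K e) :
    u ^ 2 ∈ ⁅chevF4.posUnipotent K ⊓ twistedF4 K e, chevF4.posUnipotent K ⊓ twistedF4 K e⁆ := by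
  rw [U_inf_eq hφ2 hρ hτ hφ] at hu ⊢
  refine sq_mem_of_le ?_ hu
  have hok : ClOK chevF4 T.ρ cl := by
    rw [hρ]
    exact clB_sound clChk
  have hU : chevF4.posUnipotent K = gen (sys (F := K)).toAddRel {r | r ∈ cl.flatten} := by
    rw [posUnipotent_eq (sys (F := K)).toAddRel]
    congr 1
    ext r
    exact ⟨fun h => flatChk.1 r (mem_posRoots h), fun h => flatChk.2 r h⟩
  rw [hU]
  refine fix_flat_le sys tbl_chevF4 T cl hok _ ?_
  intro S hS x hx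
  apply Subgroup.subset_closure
  have hSflat : ∀ r ∈ S, r ∈ cl.flatten := fun r hr => List.mem_flatten.2 ⟨S, hS, hr⟩
  have hxU : x ∈ gen (sys (F := K)).toAddRel {r | r ∈ cl.flatten} ⊓ T.Fx :=
    ⟨gen_mono _ hSflat hx.1, hx.2⟩
  refine ⟨hxU, ?_⟩
  have hS' := hS
  rw [← certs_eq] at hS'
  obtain ⟨c, hc, rfl⟩ := List.mem_map.1 hS'
  have hm' := prodA_flat_mem (K := K) hφ2 hρ hτ hφ c.2.1
  have hnf := G1_le_Fx hφ2 hρ hτ hφ hm'
  have hlt : ∀ i ∈ (c.2.1.map lw).flatten, i < chevF4.rank := by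
    intro i hi
    obtain ⟨J, hJ, hiJ⟩ := List.mem_flatten.1 hi
    obtain ⟨j, -, rfl⟩ := List.mem_map.1 hJ
    exact lw_lt j i hiJ
  have hclt : ∀ r ∈ {r | r ∈ c.1}, r < chevF4.nroots := by
    intro r hr
    exact (flatChk.2 r (hSflat r hr)).1
  have hN := prodA_mem_N (F := K) sys tbl_chevF4 hlt
  set n : GL chevF4.Idx K := prodA sys (c.2.1.map lw).flatten with hndef
  have h1 : n * x * n⁻¹ ∈ YY T c.2.2 := by
    refine ⟨conj_gen sys tbl_chevF4 hN hclt ?_ hx.1,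
      Subgroup.mul_mem _ (Subgroup.mul_mem _ hnf hx.2) (Subgroup.inv_mem _ hnf)⟩
    intro r hr
    rw [pn_prodA sys tbl_chevF4 hlt]
    exact certs_chk c hc r.val hr
  have hback : ∀ y ∈ YY T c.2.2, n⁻¹ * y * n ∈ gen (sys (F := K)).toAddRel {r | r ∈ cl.flatten} ⊓ T.Fx := by
    intro y hy
    have hgen : n⁻¹ * y * n ∈ gen (sys (F := K)).toAddRel {r | r ∈ c.1} := by
      have := conj_gen sys tbl_chevF4 (Subgroup.inv_mem _ hN) (Ψ := {r | r ∈ lr c.2.2}) (Ψ' := {r | r ∈ c.1})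
        (fun r hr => ((closed_lr _).pos r hr).1) ?_ hy.1
      · simpa using this
      intro r hr
      rw [pn_inv sys tbl_chevF4 hN]
      obtain ⟨s, hs, e1⟩ := certs_chk2 c hc r.val hr
      have hslt := hclt s hs
      have e2 : pn sys tbl_chevF4 hN ⟨s, hslt⟩ = r := by
        apply Fin.ext
        rw [pn_prodA sys tbl_chevF4 hlt]
        exact e1
      rw [← e2]
      simpa using hs
    exact ⟨gen_mono _ hSflat hgen, Subgroup.mul_mem _ (Subgroup.mul_mem _ (Subgroup.inv_mem _ hnf) hy.2) hnf⟩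
  have h2 := conj_sq_mem (n := n) hback h1 (sq_YY hφ2 hρ hτ hm hK c.2.2 h1)
  have e2 : n⁻¹ * (n * x * n⁻¹) * n = x := by group
  rwa [e2] at h2

end Cfsg.Agent.Lib.SqChar2.F4

namespace Cfsg.Agent.Lib.SqChar2.F4

open Cfsg.Lie Cfsg.Agent.Lib.TF4 Cfsg.Agent.Lib.SqChar2.Root Cfsg.Agent.Lib.SqChar2.Chev

/-- The large Ree groups. -/
theorem good_F4 {K : Type*} [Field K] [Fintype K] {m : ℕ} (hm : 1 ≤ m) (hK : Fintype.card K = 2 ^ (2 * m + 1)) :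
    GoodSyl ↥(twistedF4 K (2 ^ m)) 2 := by
  obtain ⟨hc, φ, hφ, hφ2, T, hρ, hτ⟩ := main_data hK
  haveI := hc
  have hA := card_U1 hφ2 hρ hτ hφ
  have hG := card_G1 hφ2 hρ hτ hφ
  have hq : Nat.card K = 2 ^ (2 * m + 1) := by rw [Nat.card_eq_fintype_card, hK]
  rw [hq] at hA hG
  rw [← pow_mul] at hA
  have hle : chevF4.posUnipotent K ⊓ twistedF4 K (2 ^ m) ≤ twistedF4 K (2 ^ m) := inf_le_right
  haveI : Finite ↥(twistedF4 K (2 ^ m)) := inferInstance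
  obtain ⟨q, hq0⟩ : ∃ q, q = 2 ^ (2 * m + 1) := ⟨_, rfl⟩
  rw [← hq0] at hG
  refine good_of_card hle (c := 1) hA (d := (q - 1) ^ 2 * (1 + q + q ^ 2 + 2 * q ^ 3 + q ^ 4 + q ^ 5 + 2 * q ^ 6 +
    q ^ 7 + q ^ 8 + 2 * q ^ 9 + q ^ 10 + q ^ 11 + q ^ 12)) ?_ ?_ (fun u hu => sq_U hφ2 hρ hτ hφ hm hK hu)
  · rw [one_mul, hG, pow_mul 2 (2 * m + 1) 12, ← hq0]
    ring
  · have hq' : Even q := by
      rw [hq0]
      exact (even_two).pow_of_ne_zero (by omega)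
    have hq1 : 1 ≤ q := by
      rw [hq0]
      exact Nat.one_le_two_pow
    have h1 : Odd (q - 1) := Nat.Even.sub_odd hq1 hq' odd_one
    refine (h1.pow).mul ?_
    have e : 1 + q + q ^ 2 + 2 * q ^ 3 + q ^ 4 + q ^ 5 + 2 * q ^ 6 + q ^ 7 + q ^ 8 + 2 * q ^ 9 + q ^ 10 + q ^ 11 + q ^ 12 =
        1 + (q + q ^ 2 + 2 * q ^ 3 + q ^ 4 + q ^ 5 + 2 * q ^ 6 + q ^ 7 + q ^ 8 + 2 * q ^ 9 + q ^ 10 + q ^ 11 + q ^ 12) := by
      ring
    rw [e]
    refine Even.one_add ?_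
    simp [Nat.even_add, Nat.even_mul, Nat.even_pow, hq']

end Cfsg.Agent.Lib.SqChar2.F4
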