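import Mathlib
import Cfsg.Agent.Lib.SqChar2.Root
import Cfsg.Agent.Lib.OmM.Final

/-!
Squares in the Sylow `2`-subgroups of `Ω⁻_{2m+2}(q)`, `q` even.
-/

set_option autoImplicit false
set_option linter.unusedSectionVars false
set_option linter.unusedSimpArgs false

namespace Cfsg.Agent.Lib.SqChar2.OmM

open Matrix
open scoped commutatorElement
open Cfsg Cfsg.Agent.Lib.Linalg.BinaryAniso Cfsg.Agent.Lib.Classical.Orth.Models
open Cfsg.Agent.Lib.OmM.Basic Cfsg.Agent.Lib.OmM.Weyl Cfsg.Agent.Lib.OmM.Emb Cfsg.Agent.Lib.OmM.Om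
open Cfsg.Agent.Lib.OmM.Last Cfsg.Agent.Lib.OmM.Rd Cfsg.Agent.Lib.OmM.Col Cfsg.Agent.Lib.OmM.Final
open Cfsg.Agent.Lib.TwBN.Mat Cfsg.Agent.Lib.TwBN.RootGen
open Cfsg.Agent.Lib.SqChar2.Root Cfsg.Agent.Lib.SLSyl.Core

variable {F : Type*} [Field F] [Fintype F] {m : ℕ} {a b : F}
variable [hab : Fact (∀ r : F, r ^ 2 ≠ -b + a * r)]

section Small

variable [CharP (KK a b) 2]

theorem add_self' (s : KK a b) : s + s = 0 := CharTwo.add_self_eq_zero s

theorem x2_sq (s : KK a b) : x2 s * x2 s = 1 := by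
  have e2 : ∀ t : KK a b, -t = t := CharTwo.neg_eq
  apply Matrix.ext
  intro i j
  fin_cases i <;> fin_cases j <;>
    simp [x2, Matrix.mul_apply, Fin.sum_univ_four, add_self', e2]

theorem xl_sq (s t : KK a b) : xl s t * xl s t = 1 := by
  have e2 : ∀ t : KK a b, -t = t := CharTwo.neg_eq
  apply Matrix.ext
  intro i j
  fin_cases i <;> fin_cases j <;>
    simp [xl, Matrix.mul_apply, Fin.sum_univ_four, add_self', e2]
  · have h1 := add_self' (s * t)
    rw [mul_comm t s]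
    rw [h1, zero_add, h1]

end Small

section Main

variable [CharP F 2]

theorem sq_xE {i j : Fin m} (hij : i ≠ j) (c : F) : (xE (a := a) (b := b) hij c) ^ 2 = 1 := by
  haveI : CharP (KK a b) 2 := charP_of_injective_algebraMap (algebraMap F (KK a b)).injective 2
  apply ph_inj
  rw [pow_two, map_mul, ph_xE_emb, ← emb_mul, x2_sq, emb_one, map_one]

theorem sq_xL (p : Fin m) (ξ : KK a b) : (xL p ξ) ^ 2 = 1 := by
  haveI : CharP (KK a b) 2 := charP_of_injective_algebraMap (algebraMap F (KK a b)).injective 2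
  apply ph_inj
  rw [pow_two, map_mul, ph_xL_emb, ← emb_mul, xl_sq, emb_one, map_one]

theorem good : GoodSyl (GG m a b) 2 := by
  haveI : Fact (Nat.Prime 2) := ⟨Nat.prime_two⟩
  haveI : CharP (KK a b) 2 := charP_of_injective_algebraMap (algebraMap F (KK a b)).injective 2
  have hH := (rd (m := m) (a := a) (b := b)).hyp gen_top ph_inj 2 cover surj
  refine goodSyl_of_core (P := (rd (m := m) (a := a) (b := b)).bn gen_top)
    (rd (m := m) (a := a) (b := b)).core rfl rfl rfl hH ?_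
  rintro _ ⟨j, rfl⟩ y hy
  have hX : ((rd (m := m) (a := a) (b := b)).core).X ((rd (m := m) (a := a) (b := b)).e j) =
      Xs ph oo ((rd (m := m) (a := a) (b := b)).τ j) :=
    (rd (m := m) (a := a) (b := b)).e_inj.extend_apply
      (fun j => Xs ph oo ((rd (m := m) (a := a) (b := b)).τ j)) (fun _ => ⊥) j
  rw [hX] at hy ⊢
  have h1 : y ^ 2 = 1 := by
    change y ∈ Xs ph oo (tt j) at hy
    by_cases h : j.val + 1 < m
    · rw [tt_A j h] at hy
      obtain ⟨c, rfl⟩ := eq_xE (a := a) (b := b) (i := j) (j := ⟨j.val + 1, h⟩) rfl hy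
      exact sq_xE _ c
    · rw [tt_L j h] at hy
      obtain ⟨c, rfl⟩ := eq_xL (a := a) (b := b) (p := j) (by have := j.2; omega) hy
      exact sq_xL _ c
  rw [h1]
  exact Subgroup.one_mem _

theorem sqSyl_quot' : SqSyl (GG m a b ⧸ Subgroup.center (GG m a b)) :=
  sqSyl_quot _ good

end Main

/-- The groups `PΩ⁻`. -/
theorem sqSyl_POmegaMinus [CharP F 2] (m : ℕ) (a b : F)
    (hab : ∀ z₁ z₂ : F, z₁ ^ 2 + a * z₁ * z₂ + b * z₂ ^ 2 = 0 → z₁ = 0 ∧ z₂ = 0) :
    SqSyl (Cfsg.POmega F (Cfsg.quadFormMinus m F a b)) := by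
  haveI := Cfsg.Agent.Lib.Linalg.BinaryAniso.fact_of_aniso hab
  rw [← Cfsg.Agent.Lib.Classical.Orth.Models.coe_minusForm m F a b]
  exact sqSyl_quot'

end Cfsg.Agent.Lib.SqChar2.OmM
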