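import Mathlib
import Cfsg.Agent.Lib.SqChar2.Root
import Cfsg.Agent.Lib.StBlocks.SLMain

/-!
Squares in the Sylow `2`-subgroups of `SL_n(F)`, `F` of characteristic `2`.
-/

set_option autoImplicit false
set_option linter.unusedSectionVars false

namespace Cfsg.Agent.Lib.SqChar2.SL

open Matrix Cfsg Cfsg.Agent.Lib.StBlocks.SLBasic Cfsg.Agent.Lib.Linalg.AutPSLSylow
open Cfsg.Agent.Lib.StBlocks.SLPair Cfsg.Agent.Lib.StBlocks.SLSpl Cfsg.Agent.Lib.StBlocks.SLMain
open Cfsg.Agent.Lib.BNPair.Basic Cfsg.Agent.Lib.ChevOrder.BNCount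
open Cfsg.Agent.Lib.StGen.Final Cfsg.Agent.Lib.SqChar2.Root Cfsg.Agent.Lib.SLSyl.Core

variable {m : ℕ} {F : Type*} [Field F] [Fintype F] [CharP F 2]

theorem hyp_SL [Fact (Nat.Prime 2)] : Hyp (bn m F) 2 (USL (m + 2) F) eE where
  hU := (spl m F 2).hU
  U_le := (spl m F 2).U_le
  U_norm := (spl m F 2).U_norm
  B_dec := (spl m F 2).B_dec
  T_cop := by
    have h := (spl m F 2).T_cop
    rw [Nat.coprime_comm, Nat.prime_two.coprime_iff_not_dvd] at h
    exact h
  he := (spl m F 2).he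
  hes := (spl m F 2).hes
  hne := by
    rintro _ ⟨i, rfl⟩
    exact ⟨xx i 1, isUT_tv Fin.castSucc_lt_succ (1 : F), not_B_conj i⟩
  hT := by
    intro n hn htop x hx hy
    obtain ⟨π, hπ⟩ := hn
    exact mem_T_of_anti hπ (strictAnti_of_top hπ htop) hx hy

variable (m F) in
theorem good_SL : GoodSyl (Matrix.SpecialLinearGroup (Fin (m + 2)) F) 2 := by
  haveI : Fact (Nat.Prime 2) := ⟨Nat.prime_two⟩
  refine goodSyl_of_core (P := bn m F) (core (m := m) (F := F)) rfl rfl rfl hyp_SL ?_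
  rintro _ ⟨i, rfl⟩ x hx
  rw [show (core (m := m) (F := F)).X = Function.extend eE Xg (fun _ => ⊥) from rfl,
    eE_injective.extend_apply] at hx ⊢
  obtain ⟨a, rfl⟩ := hx
  have h : (xx i a) ^ 2 = 1 := by
    rw [pow_two, xx, ← Matrix.SpecialLinearGroup.transvection_add, CharTwo.add_self_eq_zero,
      Matrix.SpecialLinearGroup.transvection_coeff_zero]
  rw [h]
  exact Subgroup.one_mem _

/-- The case of `PSL`. -/
theorem sqSyl_PSL {n : ℕ} (hn : 2 ≤ n) : SqSyl (Matrix.ProjectiveSpecialLinearGroup (Fin n) F) := by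
  obtain ⟨m, rfl⟩ : ∃ m, n = m + 2 := ⟨n - 2, by omega⟩
  exact sqSyl_quot _ (good_SL m F)

end Cfsg.Agent.Lib.SqChar2.SL
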