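import Mathlib
import Cfsg.Agent.Lib.SqChar2.Root
import Cfsg.Agent.Lib.SuBN.Gen

/-!
Squares in the Sylow `2`-subgroups of `SU_n(q)`, `q` even.
-/

set_option autoImplicit false
set_option linter.unusedSectionVars false
set_option linter.unusedSimpArgs false

namespace Cfsg.Agent.Lib.SqChar2.SU

open scoped Matrix commutatorElement
open Cfsg Cfsg.Agent.Lib.SpBN.Mat Cfsg.Agent.Lib.SpBN.RootGen
open Cfsg.Agent.Lib.Classical.Herm.Basic Cfsg.Agent.Lib.Classical.Herm.SU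
open Cfsg.Agent.Lib.Classical.Herm.Subfield
open Cfsg.Agent.Lib.Fusion.PSU.Basis
open Cfsg.Agent.Lib.SuBN.Frame Cfsg.Agent.Lib.SuBN.Emb Cfsg.Agent.Lib.SuBN.Small Cfsg.Agent.Lib.SuBN.Weyl
open Cfsg.Agent.Lib.SuBN.Types Cfsg.Agent.Lib.SuBN.Last Cfsg.Agent.Lib.SuBN.Gen
open Cfsg.Agent.Lib.SqChar2.Root Cfsg.Agent.Lib.SLSyl.Core

variable {F : Type*} [Field F] [Fintype F] {q m ε : ℕ} [CharP F 2]

section Small

theorem two_eq (a : F) : a + a = 0 := CharTwo.add_self_eq_zero a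

theorem x4_sq (t : F) : x4 q t * x4 q t = 1 := by
  ext i j
  fin_cases i <;> fin_cases j <;>
    simp [x4, Matrix.mul_apply, Fin.sum_univ_four, two_eq]

theorem x2_sq (t : F) : x2 t * x2 t = 1 := by
  ext i j
  fin_cases i <;> fin_cases j <;>
    simp [x2, Matrix.mul_apply, Fin.sum_univ_two, two_eq]

theorem x3_comm (t s t₁ s₁ s₂ : F) (h1 : t₁ + t₁ ^ q = t * t ^ q) :
    x3 q t s * x3 q t s * x3 q 1 s₂ * x3 q t₁ s₁ = x3 q t₁ s₁ * x3 q 1 s₂ := by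
  have e2 : ∀ a : F, -a = a := CharTwo.neg_eq
  ext i j
  fin_cases i <;> fin_cases j <;>
    simp [x3, Matrix.mul_apply, Fin.sum_univ_three, two_eq, e2]
  · ring
  · linear_combination (-1 : F) * h1 + two_eq (t₁ ^ q) + two_eq s
  · ring

end Small

section Gen

variable (hF : Fintype.card F = q ^ 2)

include hF

/-- Type A. -/
theorem sq_A (W : WB F q (2 * m + 2 + ε)) (i : Fin m) {x : SU (2 * m + 2 + ε) F q}
    (hx : x ∈ Xs (rho W) Fin.val Fin.val_injective (tA i)) : x ^ 2 = 1 := by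
  rw [xA_eq hF W i hx, pow_two]
  apply W.ext_M
  rw [W.M_mul, xA, M_mk, ← emb_mul, x4_sq, emb_one, W.M_one]

/-- Type B. -/
theorem sq_B (W : WB F q (2 * m + 2 + 0)) {x : SU (2 * m + 2 + 0) F q}
    (hx : x ∈ Xs (rho W) Fin.val Fin.val_injective tL) : x ^ 2 = 1 := by
  obtain ⟨t, ht, rfl⟩ := xB_eq hF W hx
  rw [pow_two]
  apply W.ext_M
  rw [W.M_mul, xB, M_mk, ← emb_mul, x2_sq, emb_one, W.M_one]

/-- Type C. -/
theorem sq_C (W : WB F q (2 * m + 2 + 1)) {x : SU (2 * m + 2 + 1) F q}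
    (hx : x ∈ Xs (rho W) Fin.val Fin.val_injective tL) :
    x ^ 2 ∈ ⁅Xs (rho W) Fin.val Fin.val_injective tL, Xs (rho W) Fin.val Fin.val_injective tL⁆ := by
  obtain ⟨t, s, h, rfl⟩ := xC_eq hF W hx
  have hc : (t * t ^ q) ^ q = t * t ^ q := by
    rw [mul_pow, pow_q_pow_q hF]
    ring
  obtain ⟨t₁, ht₁⟩ := Cfsg.Agent.Lib.Classical.Herm.Tv.exists_trace_eq hF hc
  have hc1 : (-(t₁ * t₁ ^ q)) ^ q = -(t₁ * t₁ ^ q) := by
    rw [pow_q_neg hF, mul_pow, pow_q_pow_q hF]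
    ring
  obtain ⟨s₁, hs₁⟩ := Cfsg.Agent.Lib.Classical.Herm.Tv.exists_trace_eq hF hc1
  have h1 : s₁ + s₁ ^ q + t₁ * t₁ ^ q = 0 := by
    rw [hs₁]
    ring
  have hc2 : (-((1 : F) * 1 ^ q)) ^ q = -((1 : F) * 1 ^ q) := by
    rw [pow_q_neg hF, mul_pow, pow_q_pow_q hF]
    simp
  obtain ⟨s₂, hs₂⟩ := Cfsg.Agent.Lib.Classical.Herm.Tv.exists_trace_eq hF hc2
  have h2 : s₂ + s₂ ^ q + (1 : F) * 1 ^ q = 0 := by
    rw [hs₂]
    ring
  have e : (xC hF W h) ^ 2 = ⁅xC hF W h1, xC hF W h2⁆ := by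
    rw [commutatorElement_def, pow_two, eq_mul_inv_iff_mul_eq, eq_mul_inv_iff_mul_eq]
    apply W.ext_M
    simp only [W.M_mul, xC, M_mk, ← emb_mul]
    rw [x3_comm t s t₁ s₁ s₂ ht₁]
  rw [e]
  exact Subgroup.commutator_mem_commutator (xC_mem hF W h1) (xC_mem hF W h2)

variable {W : WB F q (2 * m + 2 + ε)} (L : LastData W)

include L

theorem good_SU (hε : ε ≤ 1)
    (hL : ∀ x ∈ Xs (rho W) Fin.val Fin.val_injective (tL (m := m) (ε := ε)),
      x ^ 2 ∈ ⁅Xs (rho W) Fin.val Fin.val_injective (tL (m := m) (ε := ε)),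
        Xs (rho W) Fin.val Fin.val_injective (tL (m := m) (ε := ε))⁆) :
    GoodSyl (SU (2 * m + 2 + ε) F q) 2 := by
  haveI : Fact (Nat.Prime 2) := ⟨Nat.prime_two⟩
  have hH := (rd hF L hε).hyp (hG hF L hε) (rho_inj W) 2 (fun r c h => cover r c h hε)
    (fun i k hk => ⟨⟨k, by have := i.2; omega⟩, rfl⟩)
  refine goodSyl_of_core (P := (rd hF L hε).bn (hG hF L hε)) (rd hF L hε).core rfl rfl rfl hH ?_
  rintro _ ⟨j, rfl⟩ y hy
  have hX : ((rd hF L hε).core).X ((rd hF L hε).e j) =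
      Xs (rho W) Fin.val (rd hF L hε).ho ((rd hF L hε).τ j) :=
    (rd hF L hε).e_inj.extend_apply (fun j => Xs (rho W) Fin.val (rd hF L hε).ho ((rd hF L hε).τ j))
      (fun _ => ⊥) j
  rw [hX] at hy ⊢
  cases j with
  | some i =>
    have h1 : y ^ 2 = 1 := sq_A hF W i hy
    rw [h1]
    exact Subgroup.one_mem _
  | none => exact hL y hy

end Gen

/-- The unitary groups. -/
theorem sqSyl_PSU {n : ℕ} (hn : 2 ≤ n) (hF : Fintype.card F = q ^ 2) : SqSyl (Cfsg.PSU n F q) := by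
  classical
  obtain ⟨W⟩ := Cfsg.Agent.Lib.Fusion.PSU.Basis.exists_wb hF n
  obtain ⟨w, hw0, hw⟩ := Cfsg.Agent.Lib.Classical.Herm.Subfield.exists_trace_zero hF
  obtain ⟨m, ε, hε, rfl⟩ : ∃ m ε, ε ≤ 1 ∧ n = 2 * m + 2 + ε :=
    ⟨(n - 2) / 2, (n - 2) % 2, by omega, by omega⟩
  interval_cases ε
  · refine sqSyl_quot _ (good_SU hF (⟨eB hF W hw0 hw, isMo_eB hF W hw0 hw, fun u hu => dec_B hF W hu,
      fun x hx => sl2_B hF W hw0 hw hx, ne_B hF W hw0 hw⟩ : LastData W) (by omega) ?_)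
    intro x hx
    rw [sq_B hF W hx]
    exact Subgroup.one_mem _
  · refine sqSyl_quot _ (good_SU hF (⟨eC hF W, isMo_eC hF W, fun u hu => dec_C hF W hu,
      fun x hx => sl2_C hF W hx, ne_C hF W hw0 hw⟩ : LastData W) (by omega) ?_)
    intro x hx
    exact sq_C hF W hx

end Cfsg.Agent.Lib.SqChar2.SU
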