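import Mathlib
import Cfsg.Agent.Lib.SqChar2.Root
import Cfsg.Agent.Lib.SqChar2.Field
import Cfsg.Agent.Lib.Suzuki.Syl
import Cfsg.Agent.Lib.Suzuki.Iso

/-!
Squares in the Sylow `2`-subgroups of the Suzuki groups.
-/

set_option autoImplicit false
set_option linter.unusedSectionVars false

namespace Cfsg.Agent.Lib.SqChar2.Sz

open Cfsg.Agent.Lib.Suzuki.Basic Cfsg.Agent.Lib.Suzuki.Group Cfsg.Agent.Lib.Suzuki.Struct
  Cfsg.Agent.Lib.Suzuki.Order Cfsg.Agent.Lib.Suzuki.Zass Cfsg.Agent.Lib.Suzuki.Sub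
  Cfsg.Agent.Lib.Suzuki.Syl
open Cfsg.Agent.Lib.SqChar2.Root Cfsg.Agent.Lib.SqChar2.Field Cfsg.Agent.Lib.SLSyl.Core
open scoped commutatorElement

variable {F : Type*} [Field F] [Fintype F] {m : ℕ} (h : Hyp F m)

/-- The field map. -/
noncomputable def sg (h : Hyp F m) : F →+* F where
  toFun t := t ^ (2 ^ (m + 1))
  map_one' := one_pow _
  map_mul' a b := mul_pow a b _
  map_zero' := zero_pow (by positivity)
  map_add' a b := h.add_pow_sg a b

theorem sg_apply (t : F) : sg h t = t ^ (2 ^ (m + 1)) := rfl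

include h

theorem good : GoodSyl (G F m) 2 := by
  haveI := h.charP
  have htop : Nf (sg h) = ⊤ := Nf_top (sg h) (fun t ht => h.fixed_of_pow_sg ht) h.hm h.hF
  have hZ : ∀ v : F, Lg h 0 v ∈ ⁅Usub h, Usub h⁆ := by
    intro v
    have hv : v ∈ Nf (sg h) := by rw [htop]; trivial
    induction hv using AddSubgroup.closure_induction with
    | mem x hx =>
      obtain ⟨a, b, rfl⟩ := hx
      have h1 := Lg_commutator h a 0 b 0
      rw [sg_apply, sg_apply, ← h1]
      exact Subgroup.commutator_mem_commutator ((mem_Usub h).2 ⟨a, 0, rfl⟩) ((mem_Usub h).2 ⟨b, 0, rfl⟩)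
    | zero =>
      rw [Lg_zero h]
      exact Subgroup.one_mem _
    | add x y _ _ hx hy =>
      have e : Lg h 0 (x + y) = Lg h 0 x * Lg h 0 y := by
        rw [Lg_mul h, add_zero, zero_pow_sg h, zero_mul, add_zero]
      rw [e]
      exact Subgroup.mul_mem _ hx hy
    | neg x _ hx =>
      rw [h.neg_eq]
      exact hx
  refine ⟨Usyl h, fun u hu => ?_⟩
  rw [coe_Usyl] at hu ⊢
  obtain ⟨a, b, rfl⟩ := hu
  rw [pow_two, Lg_sq h]
  exact hZ _

theorem sqSyl : SqSyl (G F m) := sqSyl_of_good (good h)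

theorem sqSyl_Sz : SqSyl (Cfsg.Lie.Sz F (2 ^ (m + 1))) := by
  haveI : Finite (G F m) := inferInstance
  haveI : Finite (Cfsg.Lie.Sz F (2 ^ (m + 1))) :=
    Finite.of_equiv (G F m) (Cfsg.Agent.Lib.Suzuki.Iso.suzEquiv h).toEquiv
  exact SqSyl.of_mulEquiv (Cfsg.Agent.Lib.Suzuki.Iso.suzEquiv h) (sqSyl h)

end Cfsg.Agent.Lib.SqChar2.Sz
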