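import Mathlib
import Cfsg.Agent.Lib.SqChar2.Chev
import Cfsg.Agent.Lib.Twisted.D4Order
import Cfsg.Agent.Lib.Twisted.E6Order

/-!
Squares in the Sylow `2`-subgroups of the twisted groups `³D₄(q)` and `²E₆(q)`, `q` even: the classes of
positive roots consist of pairwise commuting root subgroups.
-/

set_option autoImplicit false
set_option linter.unusedSectionVars false
set_option maxRecDepth 100000

namespace Cfsg.Agent.Lib.SqChar2.Tw

open Cfsg.Lie Cfsg.Agent.Lib.Twisted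
open Cfsg.Agent.Lib.ChevBN.Elem Cfsg.Agent.Lib.ChevBN.Table Cfsg.Agent.Lib.ChevBN.Rel
open Cfsg.Agent.Lib.ChevBN.Collect Cfsg.Agent.Lib.ChevOrder.Chev
open Cfsg.Agent.Lib.SqChar2.Root Cfsg.Agent.Lib.SqChar2.Chain Cfsg.Agent.Lib.SqChar2.Chev
open scoped commutatorElement

variable {D : ChevalleyDatum} {F : Type*} [Field F] [CharP F 2] {η : ℕ → ℕ → ℤ}

/-- The subgroup generated by pairwise commuting root subgroups has exponent two. -/
theorem sq_of_comm {hA : AddRel D F} (hc : CommPos hA) {S : List ℕ} (hS : ∀ r ∈ S, D.IsPosRoot r)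
    (hcomm : ∀ r ∈ S, ∀ s ∈ S, r ≠ s → D.commTerms r s = []) {g : GL D.Idx F}
    (hg : g ∈ gen hA {r | r ∈ S}) : g ^ 2 = 1 := by
  have hXX : ∀ r ∈ S, ∀ s ∈ S, ∀ t u : F, Commute (X hA r t) (X hA s u) := by
    intro r hr s hs t u
    by_cases hrs : r = s
    · subst hrs
      show X hA r t * X hA r u = X hA r u * X hA r t
      rw [X_mul, X_mul, add_comm]
    · have h1 := hc r s (hS r hr) (hS s hs) (Ne.symm hrs) t u
      have h2 : D.commWord F r s t u = [] := by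
        simp [ChevalleyDatum.commWord, hcomm r hr s hs hrs]
      rw [h2, W_nil, mul_one] at h1
      exact h1.symm
  have h1 : ∀ r ∈ S, ∀ t : F, ∀ h ∈ gen hA {r | r ∈ S}, Commute (X hA r t) h := by
    intro r hr t h hh
    refine gen_induction hA (P := fun h => Commute (X hA r t) h) (Commute.one_right _) ?_ ?_ hh
    · intro s hs u
      exact hXX r hr s hs t u
    · intro a b ha hb
      exact ha.mul_right hb
  have h2 : ∀ a ∈ gen hA {r | r ∈ S}, ∀ h ∈ gen hA {r | r ∈ S}, Commute a h := by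
    intro a ha h hh
    refine gen_induction hA (P := fun a => Commute a h) (Commute.one_left _) ?_ ?_ ha
    · intro r hr t
      exact h1 r hr t h hh
    · intro a b ha hb
      exact ha.mul_left hb
  have key : g ∈ gen hA {r | r ∈ S} ∧ g ^ 2 = 1 := by
    refine gen_induction hA (P := fun g => g ∈ gen hA {r | r ∈ S} ∧ g ^ 2 = 1)
      ⟨Subgroup.one_mem _, one_pow 2⟩ ?_ ?_ hg
    · intro r hr t
      refine ⟨X_mem_gen _ hr t, ?_⟩
      rw [pow_two, X_mul, CharTwo.add_self_eq_zero, X_zero]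
    · rintro a b ⟨ha, ha'⟩ ⟨hb, hb'⟩
      refine ⟨Subgroup.mul_mem _ ha hb, ?_⟩
      rw [(h2 a ha b hb).mul_pow, ha', hb', one_mul]
  exact key.2

section Inst

variable {hR : Sys D F η} {hT : Tbl D} {T : Tw hR.toAddRel} {Js cl : List (List ℕ)}
  {G1 : Subgroup (GL D.Idx F)} [Finite F]

/-- The squares in `U¹`. -/
theorem sq_of_inst (I : Inst hR hT T Js cl G1)
    (hcl : ∀ S ∈ cl, ∀ r ∈ S, ∀ s ∈ S, r ≠ s → D.commTerms r s = []) {u : GL D.Idx F}
    (hu : u ∈ D.posUnipotent F ⊓ G1) :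
    u ^ 2 ∈ ⁅D.posUnipotent F ⊓ G1, D.posUnipotent F ⊓ G1⁆ := by
  rw [I.U_inf_eq] at hu ⊢
  refine sq_mem_of_le ?_ hu
  set A := D.posUnipotent F ⊓ T.Fx with hA
  have hU := I.U_eq
  rw [hA, hU]
  refine fix_flat_le hR hT T cl I.clok _ ?_
  intro S hS x hx
  apply Subgroup.subset_closure
  have hSflat : ∀ r ∈ S, r ∈ cl.flatten := fun r hr => List.mem_flatten.2 ⟨S, hS, hr⟩
  have hpos : ∀ r ∈ S, D.IsPosRoot r := fun r hr => (I.flat r).2 (hSflat r hr)
  have hxU : x ∈ gen hR.toAddRel {r | r ∈ cl.flatten} ⊓ T.Fx :=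
    ⟨gen_mono _ hSflat hx.1, hx.2⟩
  refine ⟨hxU, ?_⟩
  rw [sq_of_comm (commPos hR) hpos (hcl S hS) hx.1]
  exact Subgroup.one_mem _

end Inst

section Even

/-- The order of the field of definition: `q` is a power of two. -/
theorem exists_two_pow {K : Type*} [Field K] [Fintype K] [CharP K 2] {q a : ℕ}
    (hK : Fintype.card K = q ^ a) (ha : a ≠ 0) : ∃ f, q = 2 ^ f := by
  obtain ⟨n, -, hn⟩ := FiniteField.card K 2
  have h1 : q ∣ 2 ^ (n : ℕ) := by
    rw [← hn, hK]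
    exact dvd_pow_self _ ha
  obtain ⟨f, -, rfl⟩ := (Nat.dvd_prime_pow Nat.prime_two).1 h1
  exact ⟨f, rfl⟩

end Even

section D4

open Cfsg.Agent.Lib.Twisted.D4
open Cfsg.Agent.Lib.Chevalley.Tbl.D4 (sys comm)

theorem cl_comm_D4 : ∀ S ∈ cl, ∀ r ∈ S, ∀ s ∈ S, r ≠ s → chevD4.commTerms r s = [] := by
  decide +kernel

variable {K : Type*} [Field K] [Fintype K] [CharP K 2] {q : ℕ}

theorem good_D4 (hq : IsPrimePow q) (hK : Fintype.card K = q ^ 3) : GoodSyl ↥(twistedD4 K q) 2 := by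
  obtain ⟨φ, T, hφ, hφ3, hρ, hτ, I⟩ := main hq hK
  obtain ⟨f, rfl⟩ := exists_two_pow hK (by norm_num)
  have hf : f ≠ 0 := by
    rintro rfl
    have := hq.two_le
    omega
  have hA := card_U hq hK
  have hG := card_main' hq hK
  rw [← pow_mul] at hA
  have hle : chevD4.posUnipotent K ⊓ twistedD4 K (2 ^ f) ≤ twistedD4 K (2 ^ f) := inf_le_right
  haveI : Finite ↥(twistedD4 K (2 ^ f)) := inferInstance
  refine good_of_card hle (c := 1) hA (d := (((2 ^ f) ^ 2 - 1) * ((2 ^ f) ^ 6 - 1) * ((2 ^ f) ^ 8 + (2 ^ f) ^ 4 + 1))) ?_ ?_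
      (fun u hu => sq_of_inst I cl_comm_D4 hu)
  · rw [one_mul, hG, pow_mul 2 f 12]
    ring
  · have hev : ∀ k, k ≠ 0 → Even ((2 ^ f) ^ k) := fun k hk =>
      ((even_two).pow_of_ne_zero hf).pow_of_ne_zero hk
    have hpos : ∀ k, 1 ≤ (2 ^ f) ^ k := fun k => Nat.one_le_pow _ _ (by positivity)
    have hsub : ∀ k, k ≠ 0 → Odd ((2 ^ f) ^ k - 1) := fun k hk =>
      Nat.Even.sub_odd (hpos k) (hev k hk) odd_one
    refine ((hsub 2 (by norm_num)).mul (hsub 6 (by norm_num))).mul ?_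
    exact ((hev 8 (by norm_num)).add (hev 4 (by norm_num))).add_one

end D4

section E6

open Cfsg.Agent.Lib.Twisted.E6
open Cfsg.Agent.Lib.Chevalley.Tbl.E6 (sys comm)

theorem cl_comm_E6 : ∀ S ∈ cl, ∀ r ∈ S, ∀ s ∈ S, r ≠ s → chevE6.commTerms r s = [] := by
  decide +kernel

variable {K : Type*} [Field K] [Fintype K] [CharP K 2] {q : ℕ}

theorem good_E6 (hq : IsPrimePow q) (hK : Fintype.card K = q ^ 2) : GoodSyl ↥(twistedE6 K q) 2 := by
  obtain ⟨φ, T, hφ, hφ2, hρ, hτ, I⟩ := main hq hK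
  obtain ⟨f, rfl⟩ := exists_two_pow hK (by norm_num)
  have hf : f ≠ 0 := by
    rintro rfl
    have := hq.two_le
    omega
  have hA := card_U hq hK
  have hG := card_main' hq hK
  rw [← pow_mul] at hA
  have hle : chevE6.posUnipotent K ⊓ twistedE6 K (2 ^ f) ≤ twistedE6 K (2 ^ f) := inf_le_right
  haveI : Finite ↥(twistedE6 K (2 ^ f)) := inferInstance
  refine good_of_card hle (c := Nat.gcd 3 (2 ^ f + 1)) hA
    (d := (((2 ^ f) ^ 2 - 1) * ((2 ^ f) ^ 5 + 1) * ((2 ^ f) ^ 6 - 1) * ((2 ^ f) ^ 8 - 1) * ((2 ^ f) ^ 9 + 1) * ((2 ^ f) ^ 12 - 1)))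
    ?_ ?_ (fun u hu => sq_of_inst I cl_comm_E6 hu)
  · rw [hG, pow_mul 2 f 36]
    ring
  · have hev : ∀ k, k ≠ 0 → Even ((2 ^ f) ^ k) := fun k hk =>
      ((even_two).pow_of_ne_zero hf).pow_of_ne_zero hk
    have hpos : ∀ k, 1 ≤ (2 ^ f) ^ k := fun k => Nat.one_le_pow _ _ (by positivity)
    have hsub : ∀ k, k ≠ 0 → Odd ((2 ^ f) ^ k - 1) := fun k hk =>
      Nat.Even.sub_odd (hpos k) (hev k hk) odd_one
    exact (((((hsub 2 (by norm_num)).mul (hev 5 (by norm_num)).add_one).mul (hsub 6 (by norm_num))).mul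
      (hsub 8 (by norm_num))).mul (hev 9 (by norm_num)).add_one).mul (hsub 12 (by norm_num))

end E6

end Cfsg.Agent.Lib.SqChar2.Tw
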